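import Cfsg.Agent.H972.QS.Forms
import Cfsg.Agent.H46.QS.TStarEven

/-!
# T*, even dimension: the case of two involutions of type `(4, 4)` in dimension eight (QS, B2; helper972)

`case_c` : `s` an involution with `dim E₋(s) = 4` in dimension 8, `del (-s) ≠ 1`, `U` of dimension at most 4 with two
vectors whose norms have a nonsquare product. There are `a, b ∈ U^⊥` with `Q a * Q b` not a square, such that
`E₋(s) ∩ {a, b}^⊥` has rank at least two and `E₊(s) ∩ {a, b}^⊥` is not totally singular.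
-/

set_option autoImplicit false
set_option linter.unusedSectionVars false

universe u v

namespace Cfsg.Agent.H972.QS

open Module QuadraticMap
open Cfsg.Agent.ClassicalGeometry.Reflection Cfsg.Agent.ClassicalGeometry.SpinorSign
  Cfsg.Agent.ClassicalGeometry.OmegaIndex Cfsg.Agent.ClassicalGeometry.Universal
  Cfsg.Agent.ClassicalGeometry.CartanDieudonne Cfsg.Agent.ClassicalGeometry.GenReflections
open Cfsg.Agent.H146.Ore

variable {ι : Type} [Fintype ι] [DecidableEq ι] {F : Type u} [Field F] [Finite F] {Q : QuadraticForm F (ι → F)}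

/-- a nonsingular vector orthogonal to a given one -/
theorem exists_pair (h2 : (2 : F) ≠ 0) {W : Submodule F (ι → F)}
    (hW : finrank F (W ⊓ Pp Q W : Submodule F (ι → F)) + 2 ≤ finrank F W) {x : ι → F} (hx : x ∈ W) (hx0 : Q x ≠ 0) :
    ∃ y ∈ W, polar (⇑Q) x y = 0 ∧ Q y ≠ 0 := by
  by_contra hcon
  push Not at hcon
  let W₁ : Submodule F (ι → F) := W ⊓ Pp Q (Submodule.span F {x})
  have hW1 : ∀ z, z ∈ W₁ ↔ z ∈ W ∧ polar (⇑Q) x z = 0 := by
    intro z
    constructor
    · intro hz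
      exact ⟨hz.1, hz.2 x (Submodule.mem_span_singleton_self x)⟩
    · intro hz
      refine ⟨hz.1, fun y hy => ?_⟩
      obtain ⟨c, rfl⟩ := Submodule.mem_span_singleton.1 hy
      rw [polar_smul_left, hz.2, smul_zero]
  have hdec : W ≤ W₁ ⊔ Submodule.span F {x} := by
    intro z hz
    have : z = (z - ((2 * Q x)⁻¹ * polar (⇑Q) x z) • x) + ((2 * Q x)⁻¹ * polar (⇑Q) x z) • x := by abel
    rw [this]
    refine Submodule.add_mem_sup ((hW1 _).2 ⟨W.sub_mem hz (W.smul_mem _ hx), ?_⟩)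
      (Submodule.smul_mem _ _ (Submodule.mem_span_singleton_self x))
    rw [polar_sub_right, polar_smul_right, polar_eq_two, smul_eq_mul]
    have : (2 * Q x) ≠ 0 := mul_ne_zero h2 hx0
    field_simp
    ring
  have hrad : W₁ ≤ W ⊓ Pp Q W := by
    intro z hz
    refine ⟨((hW1 z).1 hz).1, fun y hy => ?_⟩
    obtain ⟨w, hw, v, hv, rfl⟩ := Submodule.mem_sup.1 (hdec hy)
    obtain ⟨c, rfl⟩ := Submodule.mem_span_singleton.1 hv
    have e1 := hcon _ (W.add_mem ((hW1 w).1 hw).1 ((hW1 z).1 hz).1)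
      (by rw [polar_add_right, ((hW1 w).1 hw).2, ((hW1 z).1 hz).2, add_zero])
    have e2 := hcon w ((hW1 w).1 hw).1 ((hW1 w).1 hw).2
    have e3 := hcon z ((hW1 z).1 hz).1 ((hW1 z).1 hz).2
    rw [polar_add_left, polar_smul_left, ((hW1 z).1 hz).2, smul_zero, add_zero, polar, e1, e2, e3]
    simp
  have h3 := Submodule.finrank_mono hrad
  have h4 := Submodule.finrank_mono hdec
  have h5 := Submodule.finrank_add_le_finrank_add_finrank W₁ (Submodule.span F {x})
  have h6 : finrank F (Submodule.span F {x}) ≤ 1 := (finrank_span_le_card ({x} : Set (ι → F))).trans (by simp)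
  omega

/-- the rank of `U^⊥` if `U` has two values with nonsquare product -/
theorem rad_Pp_two (hQ : (polarBilin Q).Nondegenerate) (h2 : (2 : F) ≠ 0) {U : Submodule F (ι → F)}
    {e₁ e₂ : ι → F} (h₁ : e₁ ∈ U) (h₂ : e₂ ∈ U) (h : ¬ IsSquare (Q e₁ * Q e₂)) :
    finrank F (Pp Q U ⊓ Pp Q (Pp Q U) : Submodule F (ι → F)) + 2 ≤ finrank F U := by
  rw [Pp_Pp hQ]
  have he : Q e₁ ≠ 0 := by
    intro h0
    apply h
    rw [h0, zero_mul]
    exact IsSquare.zero
  have hrad : ∀ n ∈ Pp Q U ⊓ U, Q n = 0 := by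
    rintro n ⟨hn, hn'⟩
    have := hn n hn'
    rw [polar_eq_two] at this
    exact (mul_eq_zero.1 this).resolve_left h2
  have hdis : (Pp Q U ⊓ U) ⊓ Submodule.span F {e₁} = ⊥ := by
    rw [eq_bot_iff]
    rintro z ⟨hz, hz'⟩
    obtain ⟨c, rfl⟩ := Submodule.mem_span_singleton.1 hz'
    have := hrad _ hz
    rw [QuadraticMap.map_smul, smul_eq_mul] at this
    have hc : c * c = 0 := (mul_eq_zero.1 this).resolve_right he
    rw [Submodule.mem_bot, mul_self_eq_zero.1 hc, zero_smul]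
  have hne : e₁ ≠ 0 := by rintro rfl; exact he (QuadraticMap.map_zero Q)
  have h3 := Submodule.finrank_sup_add_finrank_inf_eq (Pp Q U ⊓ U) (Submodule.span F {e₁})
  rw [hdis, finrank_bot, add_zero, finrank_span_singleton hne] at h3
  have h4 : (Pp Q U ⊓ U) ⊔ Submodule.span F {e₁} < U := by
    refine lt_of_le_of_ne (sup_le inf_le_right ?_) fun hU => ?_
    · rw [Submodule.span_le]
      rintro _ rfl
      exact h₁
    · have h5 : e₂ ∈ (Pp Q U ⊓ U) ⊔ Submodule.span F {e₁} := by rw [hU]; exact h₂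
      obtain ⟨n, hn, v, hv, e⟩ := Submodule.mem_sup.1 h5
      obtain ⟨c, rfl⟩ := Submodule.mem_span_singleton.1 hv
      apply h
      refine ⟨c * Q e₁, ?_⟩
      rw [← e, map_add', hrad n hn, QuadraticMap.map_smul, polar_smul_right, polar_comm, hn.1 e₁ h₁, smul_eq_mul]
      simp
      ring
  have h5 := Submodule.finrank_lt_finrank_of_lt h4
  omega

section Pi

variable (Q) in
/-- the projection to the `(-1)`-eigenspace -/
noncomputable def pr (s : Cfsg.isometryGroup F (⇑Q)) : (ι → F) →ₗ[F] (ι → F) :=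
  (2 : F)⁻¹ • (LinearMap.id - act Q s)

theorem pr_apply (s : Cfsg.isometryGroup F (⇑Q)) (x : ι → F) : pr Q s x = (2 : F)⁻¹ • (x - act Q s x) := rfl

theorem pr_mem {s : Cfsg.isometryGroup F (⇑Q)} (hs : s * s = 1) (x : ι → F) : act Q s (pr Q s x) = -pr Q s x := by
  have hss : act Q s (act Q s x) = x := by rw [← act_mul, hs, act_one]
  rw [pr_apply, map_smul, map_sub, hss, ← smul_neg, neg_sub]

theorem sub_pr {s : Cfsg.isometryGroup F (⇑Q)} (h2 : (2 : F) ≠ 0) (hs : s * s = 1) (x : ι → F) :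
    act Q s (x - pr Q s x) = x - pr Q s x := by
  have hss : act Q s (act Q s x) = x := by rw [← act_mul, hs, act_one]
  rw [map_sub, pr_mem hs, pr_apply, sub_neg_eq_add]
  have : act Q s x + (2 : F)⁻¹ • (x - act Q s x) - (x - (2 : F)⁻¹ • (x - act Q s x)) = 0 := by
    have e : act Q s x + (2 : F)⁻¹ • (x - act Q s x) - (x - (2 : F)⁻¹ • (x - act Q s x)) =
      ((2 : F)⁻¹ * 2 - 1) • (x - act Q s x) := by
      rw [sub_smul, mul_smul, two_smul, smul_add, one_smul]
      abel
    rw [e, inv_mul_cancel₀ h2, sub_self, zero_smul]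
  exact sub_eq_zero.1 this

theorem pr_of_neg (h2 : (2 : F) ≠ 0) {s : Cfsg.isometryGroup F (⇑Q)} {x : ι → F} (hx : act Q s x = -x) :
    pr Q s x = x := by
  rw [pr_apply, hx, sub_neg_eq_add, ← two_smul F x, smul_smul, inv_mul_cancel₀ h2, one_smul]

theorem pr_of_fix {s : Cfsg.isometryGroup F (⇑Q)} {x : ι → F} (hx : act Q s x = x) : pr Q s x = 0 := by
  rw [pr_apply, hx, sub_self, smul_zero]

theorem fix_of_pr (h2 : (2 : F) ≠ 0) {s : Cfsg.isometryGroup F (⇑Q)} {x : ι → F} (hx : pr Q s x = 0) :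
    act Q s x = x := by
  rw [pr_apply] at hx
  have := (smul_eq_zero.1 hx).resolve_left (inv_ne_zero h2)
  exact (sub_eq_zero.1 this).symm

theorem polar_pr (h2 : (2 : F) ≠ 0) {s : Cfsg.isometryGroup F (⇑Q)} (hs : s * s = 1) (x y : ι → F) :
    polar (⇑Q) (pr Q s x) y = polar (⇑Q) (pr Q s x) (pr Q s y) := by
  have h := polar_eq_zero h2 s (sub_pr h2 hs y) (pr_mem hs x)
  rw [polar_comm, polar_sub_right, sub_eq_zero] at h
  exact h

variable (Q) in
/-- the form `B(πx, πy)` -/
noncomputable def be (s : Cfsg.isometryGroup F (⇑Q)) : LinearMap.BilinForm F (ι → F) :=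
  LinearMap.BilinForm.comp (polarBilin Q) (pr Q s) (pr Q s)

theorem be_apply (s : Cfsg.isometryGroup F (⇑Q)) (x y : ι → F) :
    be Q s x y = polar (⇑Q) (pr Q s x) (pr Q s y) := rfl

theorem be_comm (s : Cfsg.isometryGroup F (⇑Q)) (x y : ι → F) : be Q s x y = be Q s y x := by
  rw [be_apply, be_apply, polar_comm]

theorem pB_comm (x y : ι → F) : polarBilin Q x y = polarBilin Q y x := by
  rw [polarBilin_apply_apply, polarBilin_apply_apply, polar_comm]

end Pi

theorem mem_Pp_neg (h2 : (2 : F) ≠ 0) (hQ : (polarBilin Q).Nondegenerate) {s : Cfsg.isometryGroup F (⇑Q)}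
    (hs : s * s = 1) {z : ι → F} : z ∈ Pp Q (Em Q (negI Q * s)) ↔ act Q s z = -z := by
  have hns : (negI Q * s) * (negI Q * s) = 1 := by
    rw [show negI Q * s * (negI Q * s) = negI Q * (s * negI Q) * s by group, ← negI_comm,
      show negI Q * (negI Q * s) * s = (negI Q * negI Q) * (s * s) by group, negI_mul_negI, hs, one_mul]
  rw [mem_Pp_Em h2 hQ hns, act_mul, act_negI, neg_eq_iff_eq_neg]

theorem neg_sq' {s : Cfsg.isometryGroup F (⇑Q)} (hs : s * s = 1) : (negI Q * s) * (negI Q * s) = 1 := by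
  rw [show negI Q * s * (negI Q * s) = negI Q * (s * negI Q) * s by group, ← negI_comm,
    show negI Q * (negI Q * s) * s = (negI Q * negI Q) * (s * s) by group, negI_mul_negI, hs, one_mul]

/-- duality in the nondegenerate space `E₋(s)` -/
theorem exists_dual (h2 : (2 : F) ≠ 0) (hQ : (polarBilin Q).Nondegenerate) {s : Cfsg.isometryGroup F (⇑Q)}
    (hs : s * s = 1) {e₁ e₂ : ι → F} (h₁ : act Q s e₁ = -e₁) (h₂ : act Q s e₂ = -e₂)
    (h : e₁ ∉ Submodule.span F {e₂}) : ∃ y, act Q s y = -y ∧ polar (⇑Q) e₁ y = 1 ∧ polar (⇑Q) e₂ y = 0 := by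
  by_contra hcon
  push Not at hcon
  have h3 : e₁ ∈ Pp Q (Pp Q (Em Q (negI Q * s) ⊔ Submodule.span F {e₂})) := by
    intro y hy
    rw [Pp_sup, mem_Pp_neg h2 hQ hs] at hy
    by_contra h0
    rw [polar_comm] at h0
    refine hcon ((polar (⇑Q) e₁ y)⁻¹ • y) ?_ ?_ ?_
    · rw [map_smul, hy.1, smul_neg]
    · rw [polar_smul_right, smul_eq_mul, inv_mul_cancel₀ h0]
    · rw [polar_smul_right, hy.2, smul_zero]
  rw [Pp_Pp hQ] at h3
  obtain ⟨p, hp, v, hv, e⟩ := Submodule.mem_sup.1 h3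
  obtain ⟨c, rfl⟩ := Submodule.mem_span_singleton.1 hv
  rw [mem_Em_neg] at hp
  apply h
  rw [Submodule.mem_span_singleton]
  refine ⟨c, ?_⟩
  have h4 : act Q s p = -p := by
    have : p = e₁ - c • e₂ := by rw [← e]; abel
    rw [this, map_sub, map_smul, h₁, h₂]
    rw [smul_neg]; abel
  have h5 : p = 0 := by
    rw [hp] at h4
    have : (2 : F) • p = 0 := by
      rw [two_smul]
      nth_rewrite 1 [h4]
      rw [neg_add_cancel]
    exact (smul_eq_zero.1 this).resolve_left h2
  rw [← e, h5, zero_add]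

/-- **(C0)**: `-1` on a four-dimensional space with a totally singular plane -/
theorem del_one_of_ts (h2 : (2 : F) ≠ 0) (hQ : (polarBilin Q).Nondegenerate) {s : Cfsg.isometryGroup F (⇑Q)}
    (hs : s * s = 1) (hm : finrank F (Em Q s) = 4) {T : Submodule F (ι → F)} (hT : T ≤ Em Q s)
    (hT2 : 2 ≤ finrank F T) (hQT : ∀ z ∈ T, Q z = 0) : del Q s = 1 := by
  -- two independent vectors
  obtain ⟨e₁, he₁, hne₁⟩ : ∃ e ∈ T, e ≠ 0 := by
    by_contra hcon
    push Not at hcon
    have : T = ⊥ := by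
      rw [eq_bot_iff]
      intro x hx
      rw [Submodule.mem_bot]
      exact hcon x hx
    rw [this, finrank_bot] at hT2
    omega
  obtain ⟨e₂, he₂, hne₂⟩ : ∃ e ∈ T, e ∉ Submodule.span F {e₁} := by
    by_contra hcon
    push Not at hcon
    have h1 : T ≤ Submodule.span F {e₁} := hcon
    have h3 := Submodule.finrank_mono h1
    have h6 : finrank F (Submodule.span F {e₁}) ≤ 1 := (finrank_span_le_card ({e₁} : Set (ι → F))).trans (by simp)
    omega
  have hne₁' : e₁ ∉ Submodule.span F {e₂} := by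
    intro h
    obtain ⟨c, hc⟩ := Submodule.mem_span_singleton.1 h
    apply hne₂
    rw [Submodule.mem_span_singleton]
    have hc0 : c ≠ 0 := by
      rintro rfl
      rw [zero_smul] at hc
      exact hne₁ hc.symm
    exact ⟨c⁻¹, by rw [← hc, smul_smul, inv_mul_cancel₀ hc0, one_smul]⟩
  have q1 := hQT _ he₁
  have q2 := hQT _ he₂
  have hp12 : polar (⇑Q) e₁ e₂ = 0 := by
    rw [polar, hQT _ (T.add_mem he₁ he₂), q1, q2]
    simp
  have m1 : act Q s e₁ = -e₁ := hT he₁
  have m2 : act Q s e₂ = -e₂ := hT he₂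
  obtain ⟨y, hy, y1, y2⟩ := exists_dual h2 hQ hs m1 m2 hne₁'
  obtain ⟨f₁, hf₁⟩ : ∃ f, f = y - Q y • e₁ := ⟨_, rfl⟩
  have n1 : act Q s f₁ = -f₁ := by rw [hf₁, map_sub, map_smul, hy, m1, smul_neg]; abel
  have g1 : Q f₁ = 0 := by
    rw [hf₁, sub_eq_add_neg, map_add', QuadraticMap.map_neg, QuadraticMap.map_smul, q1, polar_neg_right,
      polar_smul_right, polar_comm, y1]
    simp
  have p11 : polar (⇑Q) e₁ f₁ = 1 := by
    rw [hf₁, polar_sub_right, polar_smul_right, polar_eq_two, q1, y1]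
    simp
  have p21 : polar (⇑Q) e₂ f₁ = 0 := by
    rw [hf₁, polar_sub_right, polar_smul_right, polar_comm (⇑Q) e₂ e₁, hp12, y2]
    simp
  obtain ⟨z, hz, z2, z1⟩ := exists_dual h2 hQ hs m2 m1 hne₂
  obtain ⟨w, hw⟩ : ∃ w, w = z - polar (⇑Q) f₁ z • e₁ := ⟨_, rfl⟩
  have nw : act Q s w = -w := by rw [hw, map_sub, map_smul, hz, m1, smul_neg]; abel
  have pf : polar (⇑Q) f₁ w = 0 := by
    rw [hw, polar_sub_right, polar_smul_right, polar_comm (⇑Q) f₁ e₁, p11]
    simp
  have pe1 : polar (⇑Q) e₁ w = 0 := by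
    rw [hw, polar_sub_right, polar_smul_right, polar_eq_two, q1, z1]
    simp
  have pe2 : polar (⇑Q) e₂ w = 1 := by
    rw [hw, polar_sub_right, polar_smul_right, polar_comm (⇑Q) e₂ e₁, hp12, z2]
    simp
  obtain ⟨f₂, hf₂⟩ : ∃ f, f = w - Q w • e₂ := ⟨_, rfl⟩
  have n2 : act Q s f₂ = -f₂ := by rw [hf₂, map_sub, map_smul, nw, m2, smul_neg]; abel
  have g2 : Q f₂ = 0 := by
    rw [hf₂, sub_eq_add_neg, map_add', QuadraticMap.map_neg, QuadraticMap.map_smul, q2, polar_neg_right,
      polar_smul_right, polar_comm, pe2]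
    simp
  have p12 : polar (⇑Q) e₁ f₂ = 0 := by
    rw [hf₂, polar_sub_right, polar_smul_right, hp12, pe1]
    simp
  have p22 : polar (⇑Q) e₂ f₂ = 1 := by
    rw [hf₂, polar_sub_right, polar_smul_right, polar_eq_two, q2, pe2]
    simp
  have pff : polar (⇑Q) f₁ f₂ = 0 := by
    rw [hf₂, polar_sub_right, polar_smul_right, polar_comm (⇑Q) f₁ e₂, p21, pf]
    simp
  -- the four reflections
  have v1 : Q (e₁ + f₁) = 1 := by rw [map_add', q1, g1, p11]; simp
  have v2 : Q (e₁ - f₁) = -1 := by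
    rw [sub_eq_add_neg, map_add', QuadraticMap.map_neg, polar_neg_right, q1, g1, p11]; simp
  have v3 : Q (e₂ + f₂) = 1 := by rw [map_add', q2, g2, p22]; simp
  have v4 : Q (e₂ - f₂) = -1 := by
    rw [sub_eq_add_neg, map_add', QuadraticMap.map_neg, polar_neg_right, q2, g2, p22]; simp
  have w1 : Q (e₁ + f₁) ≠ 0 := by rw [v1]; exact one_ne_zero
  have w2 : Q (e₁ - f₁) ≠ 0 := by rw [v2]; exact neg_ne_zero.2 one_ne_zero
  have w3 : Q (e₂ + f₂) ≠ 0 := by rw [v3]; exact one_ne_zero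
  have w4 : Q (e₂ - f₂) ≠ 0 := by rw [v4]; exact neg_ne_zero.2 one_ne_zero
  have o12 : polar (⇑Q) (e₁ + f₁) (e₁ - f₁) = 0 := by
    simp only [polar_add_left, polar_sub_right, polar_eq_two]
    rw [q1, g1, polar_comm (⇑Q) f₁ e₁]
    ring
  have o13 : polar (⇑Q) (e₁ + f₁) (e₂ + f₂) = 0 := by
    simp only [polar_add_left, polar_add_right]
    rw [hp12, p12, polar_comm (⇑Q) f₁ e₂, p21, pff]
    ring
  have o14 : polar (⇑Q) (e₁ + f₁) (e₂ - f₂) = 0 := by
    simp only [polar_add_left, polar_sub_right]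
    rw [hp12, p12, polar_comm (⇑Q) f₁ e₂, p21, pff]
    ring
  have o23 : polar (⇑Q) (e₁ - f₁) (e₂ + f₂) = 0 := by
    simp only [polar_sub_left, polar_add_right]
    rw [hp12, p12, polar_comm (⇑Q) f₁ e₂, p21, pff]
    ring
  have o24 : polar (⇑Q) (e₁ - f₁) (e₂ - f₂) = 0 := by
    simp only [polar_sub_left, polar_sub_right]
    rw [hp12, p12, polar_comm (⇑Q) f₁ e₂, p21, pff]
    ring
  have o34 : polar (⇑Q) (e₂ + f₂) (e₂ - f₂) = 0 := by
    simp only [polar_add_left, polar_sub_right, polar_eq_two]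
    rw [q2, g2, polar_comm (⇑Q) f₂ e₂]
    ring
  have a1 : act Q s (e₁ + f₁) = -(e₁ + f₁) := by rw [map_add, m1, n1]; abel
  have a2 : act Q s (e₁ - f₁) = -(e₁ - f₁) := by rw [map_sub, m1, n1]; abel
  have a3 : act Q s (e₂ + f₂) = -(e₂ + f₂) := by rw [map_add, m2, n2]; abel
  have a4 : act Q s (e₂ - f₂) = -(e₂ - f₂) := by rw [map_sub, m2, n2]; abel
  obtain ⟨b1, -, -, -, c1⟩ := peel h2 hs w1 a1
  have a2' : act Q (s * reflIso Q _ w1) (e₁ - f₁) = -(e₁ - f₁) := by
    rw [act_mul, act_refl_of_perp w1 o12, a2]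
  obtain ⟨b2, -, -, -, c2⟩ := peel h2 b1 w2 a2'
  have a3' : act Q (s * reflIso Q _ w1 * reflIso Q _ w2) (e₂ + f₂) = -(e₂ + f₂) := by
    rw [act_mul, act_refl_of_perp w2 o23, act_mul, act_refl_of_perp w1 o13, a3]
  obtain ⟨b3, -, -, -, c3⟩ := peel h2 b2 w3 a3'
  have a4' : act Q (s * reflIso Q _ w1 * reflIso Q _ w2 * reflIso Q _ w3) (e₂ - f₂) = -(e₂ - f₂) := by
    rw [act_mul, act_refl_of_perp w3 o34, act_mul, act_refl_of_perp w2 o24, act_mul, act_refl_of_perp w1 o14, a4]
  obtain ⟨b4, -, -, -, c4⟩ := peel h2 b3 w4 a4'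
  have h1 := eq_one_of_Em h2 b4 (by omega)
  have h3 := congrArg (del Q) h1
  have d1 : del Q (reflIso Q _ w1) = del Q (reflIso Q _ w3) := by
    rw [del_refl_iff h2, v1, v3]
    exact ⟨1, rfl⟩
  have d2 : del Q (reflIso Q _ w2) = del Q (reflIso Q _ w4) := by
    rw [del_refl_iff h2, v2, v4]
    exact ⟨1, by ring⟩
  have r3 : del Q (reflIso Q _ w3) * del Q (reflIso Q _ w3) = 1 := by rw [← map_mul, reflIso_mul_self, map_one]
  have r4 : del Q (reflIso Q _ w4) * del Q (reflIso Q _ w4) = 1 := by rw [← map_mul, reflIso_mul_self, map_one]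
  rw [map_mul, map_mul, map_mul, map_mul, map_one, d1, d2] at h3
  calc del Q s = del Q s * (del Q (reflIso Q _ w3) * del Q (reflIso Q _ w3)) *
        (del Q (reflIso Q _ w4) * del Q (reflIso Q _ w4)) := by rw [r3, r4, mul_one, mul_one]
    _ = del Q s * del Q (reflIso Q _ w3) * del Q (reflIso Q _ w4) * del Q (reflIso Q _ w3) *
        del Q (reflIso Q _ w4) := by
      simp only [mul_comm, mul_left_comm]
    _ = 1 := h3

open Cfsg.Agent.H46.QS (R2 TS CR fin_step exists_refl)

theorem finrank_pair_le (u v : ι → F) : finrank F (Submodule.span F {u, v}) ≤ 2 := by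
  classical
  have h1 := finrank_span_le_card (R := F) ({u, v} : Set (ι → F))
  refine h1.trans ?_
  rw [Set.toFinset_insert, Set.toFinset_singleton]
  exact Finset.card_le_two

/-- the rank of `E₋(s) ∩ {u, v}^⊥` -/
theorem R2_E (h2 : (2 : F) ≠ 0) (hQ : (polarBilin Q).Nondegenerate) {s : Cfsg.isometryGroup F (⇑Q)}
    (hs : s * s = 1) (hm : finrank F (Em Q s) = 4) {u v : ι → F} (h : gd (be Q s) u v ≠ 0) :
    R2 Q (Pp Q (Em Q (negI Q * s) ⊔ Submodule.span F {u, v})) := by
  have h1 : Pp Q (Em Q (negI Q * s) ⊔ Submodule.span F {u, v}) ⊓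
      Pp Q (Pp Q (Em Q (negI Q * s) ⊔ Submodule.span F {u, v})) = ⊥ := by
    rw [eq_bot_iff, Pp_Pp hQ]
    rintro z ⟨hz, hz'⟩
    obtain ⟨p, hp, w, hw, e⟩ := Submodule.mem_sup.1 hz'
    obtain ⟨x, y, rfl⟩ := Submodule.mem_span_pair.1 hw
    have hzE : act Q s z = -z := (mem_Pp_neg h2 hQ hs).1 fun y hy => hz y (Submodule.mem_sup_left hy)
    have hpf : act Q s p = p := mem_Em_neg.1 hp
    have e1 : pr Q s (x • u + y • v) = z := by
      rw [← pr_of_neg h2 hzE, ← e, map_add (pr Q s) p, pr_of_fix hpf, zero_add]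
    have hu : be Q s (x • u + y • v) u = 0 := by
      rw [be_apply, ← polar_pr h2 hs, e1, polar_comm]
      exact hz u (Submodule.mem_sup_right (Submodule.subset_span (by simp)))
    have hv : be Q s (x • u + y • v) v = 0 := by
      rw [be_apply, ← polar_pr h2 hs, e1, polar_comm]
      exact hz v (Submodule.mem_sup_right (Submodule.subset_span (by simp)))
    obtain ⟨rfl, rfl⟩ := eq_zero_of_gd (be_comm s) h hu hv
    rw [Submodule.mem_bot, ← e1]
    simp
  have h3 := finrank_Pp hQ (Em Q (negI Q * s) ⊔ Submodule.span F {u, v})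
  have h4 := Submodule.finrank_add_le_finrank_add_finrank (Em Q (negI Q * s)) (Submodule.span F {u, v})
  have h5 := finrank_Em_neg h2 hs
  have h6 := finrank_pair_le u v
  unfold R2
  rw [h1, finrank_bot]
  omega

/-- a nonsingular vector of `E₊(s) ∩ {u, v}^⊥` -/
theorem exists_P (h2 : (2 : F) ≠ 0) (hQ : (polarBilin Q).Nondegenerate) (h8 : Fintype.card ι = 8)
    {s : Cfsg.isometryGroup F (⇑Q)} (hs : s * s = 1) (hm : finrank F (Em Q s) = 4) (hd : del Q (negI Q * s) ≠ 1)
    (u v : ι → F) : ∃ w ∈ Pp Q (Em Q s ⊔ Submodule.span F {u, v}), Q w ≠ 0 := by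
  by_contra hcon
  push Not at hcon
  have h3 := finrank_Pp hQ (Em Q s ⊔ Submodule.span F {u, v})
  have h4 := Submodule.finrank_add_le_finrank_add_finrank (Em Q s) (Submodule.span F {u, v})
  have h5 := finrank_Em_neg h2 hs
  have h6 := finrank_pair_le u v
  refine hd (del_one_of_ts h2 hQ (neg_sq' hs) (by omega) (T := Pp Q (Em Q s ⊔ Submodule.span F {u, v})) ?_
    (by omega) hcon)
  intro z hz
  rw [mem_Em_neg, ← mem_Pp_Em h2 hQ hs]
  exact fun y hy => hz y (Submodule.mem_sup_left hy)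

/-- **The final step from a good plane.** -/
theorem fin_plane (h2 : (2 : F) ≠ 0) (hQ : (polarBilin Q).Nondegenerate) (h8 : Fintype.card ι = 8)
    {s t y : Cfsg.isometryGroup F (⇑Q)} (hs : s * s = 1) (hm : finrank F (Em Q s) = 4) (hyt : y * s * y⁻¹ = t)
    (hds : del Q s ≠ 1) (hd : del Q (negI Q * s) ≠ 1) {u v : ι → F} (hu : act Q y u = u) (hv : act Q y v = v)
    (hB : gd (polarBilin Q) u v ≠ 0) (hE : R2 Q (Pp Q (Em Q (negI Q * s) ⊔ Submodule.span F {u, v}))) :
    TS Q (s * t) := by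
  have hA : R2 Q (Submodule.span F {u, v}) := by
    have h1 : Submodule.span F {u, v} ⊓ Pp Q (Submodule.span F {u, v}) = ⊥ := by
      rw [eq_bot_iff]
      rintro z ⟨hz, hz'⟩
      obtain ⟨x, y, rfl⟩ := Submodule.mem_span_pair.1 hz
      obtain ⟨rfl, rfl⟩ := eq_zero_of_gd pB_comm hB (x := x) (y := y)
        (by rw [polarBilin_apply_apply, polar_comm]; exact hz' u (Submodule.subset_span (by simp)))
        (by rw [polarBilin_apply_apply, polar_comm]; exact hz' v (Submodule.subset_span (by simp)))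
      simp
    have h3 : LinearIndependent F ![u, v] := by
      rw [LinearIndependent.pair_iff]
      intro x y hxy
      exact eq_zero_of_gd pB_comm hB (by rw [hxy, map_zero]; rfl) (by rw [hxy, map_zero]; rfl)
    have h4 := finrank_span_eq_card h3
    rw [Matrix.range_cons, Matrix.range_cons, Matrix.range_empty, Set.union_empty, Set.singleton_union,
      Fintype.card_fin] at h4
    unfold R2
    rw [h1, finrank_bot, h4]
  have hfix : ∀ z ∈ Submodule.span F {u, v}, act Q y z = z := by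
    intro z hz
    obtain ⟨x, w, rfl⟩ := Submodule.mem_span_pair.1 hz
    rw [map_add, map_smul, map_smul, hu, hv]
  obtain ⟨a, ha, ha0, hda⟩ := exists_refl h2 hA (-1)
  obtain ⟨b, hb, hb0, hdb⟩ := exists_refl h2 hA 1
  have hdels : del Q s = (1, -1) := by
    have h1 := del_fst h2 hQ 4 s hs hm
    have h3 : (del Q s).1 = 1 := by rw [h1]; exact Even.neg_one_pow (by decide)
    rcases sign_cases (del Q s).2 with h | h
    · exact absurd (Prod.ext h3 h) hds
    · exact Prod.ext h3 h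
  refine fin_step h2 hQ (s := s) (y := y) (c := reflIso Q a ha0 * reflIso Q b hb0) hs (by rw [hyt])
    ((commute_refl ha0 (hfix a ha)).mul_left (commute_refl hb0 (hfix b hb))) ?_
    (P := Pp Q (Em Q s ⊔ Submodule.span F {u, v})) (E := Pp Q (Em Q (negI Q * s) ⊔ Submodule.span F {u, v}))
    ?_ ?_ ?_ ?_ (Or.inr ⟨hE, exists_P h2 hQ h8 hs hm hd u v⟩)
  · rw [map_mul, hda, hdb, hdels]
    apply Prod.ext
    · simp
    · simp
  · intro z hz
    rw [← mem_Pp_Em h2 hQ hs]
    exact fun y hy => hz y (Submodule.mem_sup_left hy)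
  · intro z hz
    rw [act_mul, act_refl_of_perp hb0 (hz b (Submodule.mem_sup_right hb)),
      act_refl_of_perp ha0 (hz a (Submodule.mem_sup_right ha))]
  · intro z hz
    rw [← mem_Pp_neg h2 hQ hs]
    exact fun y hy => hz y (Submodule.mem_sup_left hy)
  · intro z hz
    rw [act_mul, act_refl_of_perp hb0 (hz b (Submodule.mem_sup_right hb)),
      act_refl_of_perp ha0 (hz a (Submodule.mem_sup_right ha))]

/-- the rank condition for the second form -/
theorem rank_cond (h2 : (2 : F) ≠ 0) (hQ : (polarBilin Q).Nondegenerate)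
    {s : Cfsg.isometryGroup F (⇑Q)} (hs : s * s = 1) (hm : finrank F (Em Q s) = 4)
    {W : Submodule F (ι → F)} (hC : ∀ z ∈ W, act Q s z = z → ∀ w ∈ W, polar (⇑Q) z w = 0)
    {a b d : ι → F} (ha : a ∈ W) (hb : b ∈ W) (hd : d ∈ W)
    (hdn : d ∉ Submodule.span F {a, b} ⊔ (W ⊓ Em Q (negI Q * s))) :
    ∀ c ∈ Submodule.span F {a, b}, ∀ e ∈ Submodule.span F {a, b}, gd (polarBilin Q) c e ≠ 0 → be Q s c c = 0 →
      be Q s c e = 0 → be Q s c d = 0 → gd (be Q s) e d ≠ 0 := by
  intro c hc e he hce k1 k2 k3 hed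
  have hle : Submodule.span F {a, b} ≤ W := by
    rw [Submodule.span_le]
    intro x hx
    rcases hx with rfl | hx
    · exact ha
    · rw [Set.mem_singleton_iff] at hx
      rw [hx]
      exact hb
  obtain ⟨x, y, hxy, l1, l2⟩ := exists_ker (be_comm s) hed
  have I : ∀ x y w : F, pr Q s (x • c + y • e + w • d) = 0 → x = 0 ∧ y = 0 ∧ w = 0 := by
    intro x y w h
    have hf := fix_of_pr h2 h
    have hce' : x • c + y • e ∈ Submodule.span F {a, b} :=
      add_mem (Submodule.smul_mem _ _ hc) (Submodule.smul_mem _ _ he)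
    have hmW : x • c + y • e + w • d ∈ W := add_mem (hle hce') (Submodule.smul_mem _ _ hd)
    have hw : w = 0 := by
      by_contra hw
      apply hdn
      have e1 : d = w⁻¹ • (-(x • c + y • e)) + w⁻¹ • (x • c + y • e + w • d) := by
        rw [← smul_add, neg_add_cancel_left, smul_smul, inv_mul_cancel₀ hw, one_smul]
      rw [e1]
      exact Submodule.add_mem_sup (Submodule.smul_mem _ _ (neg_mem hce'))
        (Submodule.smul_mem _ _ ⟨hmW, mem_Em_neg.2 hf⟩)
    subst hw
    rw [zero_smul, add_zero] at hf hmW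
    obtain ⟨h3, h4⟩ := eq_zero_of_gd pB_comm hce (hC _ hmW hf c (hle hc)) (hC _ hmW hf e (hle he))
    exact ⟨h3, h4, rfl⟩
  obtain ⟨z, hz⟩ : ∃ z, z = x • e + y • d := ⟨_, rfl⟩
  rw [← hz] at l1 l2
  have l3 : be Q s z c = 0 := by
    rw [hz, map_add, map_smul, map_smul, LinearMap.add_apply, LinearMap.smul_apply, LinearMap.smul_apply,
      be_comm s e c, be_comm s d c, k2, k3]
    simp
  have hlin : LinearIndependent F ![pr Q s c, pr Q s z] := by
    rw [LinearIndependent.pair_iff]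
    intro r r' h
    have h1 : pr Q s (r • c + (r' * x) • e + (r' * y) • d) = 0 := by
      rw [← h, hz]
      simp only [map_add, map_smul, smul_add, smul_smul, add_assoc]
    obtain ⟨h3, h4, h5⟩ := I _ _ _ h1
    refine ⟨h3, ?_⟩
    rcases hxy with hx | hy
    · exact (mul_eq_zero.1 h4).resolve_right hx
    · exact (mul_eq_zero.1 h5).resolve_right hy
  have hf2 := finrank_span_eq_card hlin
  rw [Matrix.range_cons, Matrix.range_cons, Matrix.range_empty, Set.union_empty, Set.singleton_union,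
    Fintype.card_fin] at hf2
  have hlin3 : LinearIndependent F ![c, e, d] := by
    rw [Fintype.linearIndependent_iff]
    intro g hg
    rw [Fin.sum_univ_three] at hg
    have h1 := I (g 0) (g 1) (g 2) (by
      have : g 0 • c + g 1 • e + g 2 • d = 0 := hg
      rw [this, map_zero])
    intro i
    fin_cases i
    · exact h1.1
    · exact h1.2.1
    · exact h1.2.2
  have hf3 := finrank_span_eq_card hlin3
  rw [Matrix.range_cons, Matrix.range_cons, Matrix.range_cons, Matrix.range_empty, Set.union_empty,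
    Set.singleton_union, Set.singleton_union, Fintype.card_fin] at hf3
  have hXP : Submodule.span F {c, e, d} ⊓ Em Q (negI Q * s) = ⊥ := by
    rw [eq_bot_iff]
    rintro w ⟨hw, hw'⟩
    obtain ⟨x, y, w, rfl⟩ := Submodule.mem_span_triple.1 hw
    obtain ⟨rfl, rfl, rfl⟩ := I _ _ _ (pr_of_fix (mem_Em_neg.1 hw'))
    simp
  have h4 := Submodule.finrank_sup_add_finrank_inf_eq (Submodule.span F {c, e, d}) (Em Q (negI Q * s))
  rw [hXP, finrank_bot, add_zero, hf3] at h4
  have hperp : ∀ v : ι → F, be Q s v c = 0 → be Q s v e = 0 → be Q s v d = 0 →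
      pr Q s v ∈ Pp Q (Submodule.span F {c, e, d} ⊔ Em Q (negI Q * s)) := by
    intro v hv1 hv2 hv3 w hw
    obtain ⟨w', hw', p, hp, rfl⟩ := Submodule.mem_sup.1 hw
    obtain ⟨x, y, w, rfl⟩ := Submodule.mem_span_triple.1 hw'
    rw [be_apply, ← polar_pr h2 hs] at hv1 hv2 hv3
    rw [polar_add_left, polar_eq_zero h2 s (mem_Em_neg.1 hp) (pr_mem hs v), add_zero, polar_comm, polar_add_right,
      polar_add_right, polar_smul_right, polar_smul_right, polar_smul_right, hv1, hv2, hv3]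
    simp
  have h5 : Submodule.span F {pr Q s c, pr Q s z} ≤
      Pp Q (Submodule.span F {c, e, d} ⊔ Em Q (negI Q * s)) := by
    rw [Submodule.span_le]
    intro v hv
    rcases hv with rfl | hv
    · exact hperp c k1 k2 k3
    · rw [Set.mem_singleton_iff] at hv
      rw [hv]
      exact hperp z l3 l1 l2
  have h6 := Submodule.finrank_mono h5
  have h7 := finrank_Pp hQ (Submodule.span F {c, e, d} ⊔ Em Q (negI Q * s))
  have h8 := finrank_Em_neg h2 hs
  omega

/-- **The case (C).** -/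
theorem cr (h2 : (2 : F) ≠ 0) (hQ : (polarBilin Q).Nondegenerate) (h8 : Fintype.card ι = 8) : CR Q := by
  intro s t y U hs ht hm hyt hU hU2 hyU hds hd
  obtain ⟨e₁, h₁, e₂, h₂, he⟩ := hU2
  have hW := rad_Pp_two hQ h2 h₁ h₂ he
  have hfU := finrank_Pp hQ U
  have hfP := finrank_Em_neg h2 hs
  obtain ⟨W, hWU⟩ : ∃ W, W = Pp Q U := ⟨_, rfl⟩
  rw [← hWU] at hW hfU hyU
  have hWr : finrank F (W ⊓ Pp Q W : Submodule F (ι → F)) + 2 ≤ finrank F W := by omega
  by_cases hC : ∃ z ∈ W, act Q s z = z ∧ ∃ w ∈ W, polar (⇑Q) z w ≠ 0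
  · obtain ⟨z, hz, hzs, w, hw, hzw⟩ := hC
    obtain ⟨b, hb, hzb⟩ : ∃ b ∈ W, gd (polarBilin Q) z b ≠ 0 := by
      by_cases hz0 : Q z = 0
      · refine ⟨w, hw, ?_⟩
        unfold gd
        rw [polarBilin_apply_apply, polarBilin_apply_apply, polarBilin_apply_apply, polar_eq_two, hz0, mul_zero,
          zero_mul, zero_sub, neg_ne_zero]
        exact mul_ne_zero hzw hzw
      · obtain ⟨b, hb, h3, h4⟩ := exists_pair h2 hWr hz hz0
        refine ⟨b, hb, ?_⟩
        unfold gd
        rw [polarBilin_apply_apply, polarBilin_apply_apply, polarBilin_apply_apply, polar_eq_two, polar_eq_two, h3,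
          mul_zero, sub_zero]
        exact mul_ne_zero (mul_ne_zero h2 hz0) (mul_ne_zero h2 h4)
    refine fin_plane h2 hQ h8 hs hm hyt hds hd (hyU z hz) (hyU b hb) hzb ?_
    have h1 : Em Q (negI Q * s) ⊔ Submodule.span F {z, b} = Em Q (negI Q * s) ⊔ Submodule.span F {b} := by
      apply le_antisymm
      · refine sup_le le_sup_left ?_
        rw [Submodule.span_le]
        intro x hx
        rcases hx with rfl | hx
        · exact Submodule.mem_sup_left (mem_Em_neg.2 hzs)
        · exact Submodule.mem_sup_right (Submodule.subset_span hx)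
      · exact sup_le_sup_left (Submodule.span_mono (by simp)) _
    have h3 := rad_le h2 hQ (neg_sq' hs) b
    have h4 := finrank_Pp hQ (Em Q (negI Q * s) ⊔ Submodule.span F {b})
    have h5 := Submodule.finrank_add_le_finrank_add_finrank (Em Q (negI Q * s)) (Submodule.span F {b})
    have h6 : finrank F (Submodule.span F {b}) ≤ 1 := (finrank_span_le_card ({b} : Set (ι → F))).trans (by simp)
    rw [h1]
    unfold R2
    omega
  · push Not at hC
    obtain ⟨a, ha, ha1⟩ := rep h2 hWr 1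
    have ha0 : Q a ≠ 0 := by rw [ha1]; exact one_ne_zero
    obtain ⟨b, hb, hab, hb0⟩ := exists_pair h2 hWr ha ha0
    have hg : gd (polarBilin Q) a b ≠ 0 := by
      unfold gd
      rw [polarBilin_apply_apply, polarBilin_apply_apply, polarBilin_apply_apply, polar_eq_two, polar_eq_two, hab,
        mul_zero, sub_zero]
      exact mul_ne_zero (mul_ne_zero h2 ha0) (mul_ne_zero h2 hb0)
    have hN : finrank F (W ⊓ Em Q (negI Q * s) : Submodule F (ι → F)) ≤ 1 := by
      by_contra hcon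
      refine hd (del_one_of_ts h2 hQ (neg_sq' hs) (by omega) (T := W ⊓ Em Q (negI Q * s)) inf_le_right (by omega) ?_)
      rintro z ⟨hz, hz'⟩
      have := hC z hz (mem_Em_neg.1 hz') z hz
      rw [polar_eq_two] at this
      exact (mul_eq_zero.1 this).resolve_left h2
    obtain ⟨d, hdW, hdn⟩ : ∃ d ∈ W, d ∉ Submodule.span F {a, b} ⊔ (W ⊓ Em Q (negI Q * s)) := by
      by_contra hcon
      push Not at hcon
      have h3 : W ≤ Submodule.span F {a, b} ⊔ (W ⊓ Em Q (negI Q * s)) := hcon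
      have h4 := Submodule.finrank_mono h3
      have h5 := Submodule.finrank_add_le_finrank_add_finrank (Submodule.span F {a, b}) (W ⊓ Em Q (negI Q * s))
      have h6 := finrank_pair_le a b
      omega
    obtain ⟨u, hu, v, hv, huv, huv'⟩ := two_forms h2 pB_comm (be_comm s) hg
      (rank_cond h2 hQ hs hm hC ha hb hdW hdn)
    have hle : Submodule.span F {a, b, d} ≤ W := by
      rw [Submodule.span_le]
      intro x hx
      simp only [Set.mem_insert_iff, Set.mem_singleton_iff] at hx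
      rcases hx with rfl | rfl | rfl
      · exact ha
      · exact hb
      · exact hdW
    exact fin_plane h2 hQ h8 hs hm hyt hds hd (hyU u (hle hu)) (hyU v (hle hv)) huv (R2_E h2 hQ hs hm huv')

end Cfsg.Agent.H972.QS
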