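import Cfsg.Agent.H146.OreOdd

/-!
# A common nondegenerate plane of two forms (QS, B2 even; helper972)
-/

set_option autoImplicit false

universe u v

namespace Cfsg.Agent.H972.QS

open Module

section Two

variable {F : Type u} [Field F] {V : Type v} [AddCommGroup V] [Module F V]

/-- the Gram determinant -/
def gd (B : LinearMap.BilinForm F V) (x y : V) : F := B x x * B y y - B x y * B x y

theorem gd_comm {B : LinearMap.BilinForm F V} (hB : ∀ x y, B x y = B y x) (x y : V) : gd B x y = gd B y x := by
  unfold gd
  rw [hB x y]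
  ring

theorem gd_add {B : LinearMap.BilinForm F V} (hB : ∀ x y, B x y = B y x) (c d e : V) (t : F) :
    gd B c (d + t • e) = gd B c d + t * (2 * (B c c * B d e - B c d * B c e)) + t ^ 2 * gd B c e := by
  unfold gd
  simp only [map_add, map_smul, LinearMap.add_apply, LinearMap.smul_apply, smul_eq_mul]
  rw [hB e d]
  ring

/-- a polynomial of degree two has a nonzero value -/
theorem exists_t (h2 : (2 : F) ≠ 0) {p₀ p₁ p₂ : F} (hp : p₂ ≠ 0) : ∃ t : F, p₀ + t * p₁ + t ^ 2 * p₂ ≠ 0 := by
  by_contra hcon
  push Not at hcon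
  have e0 := hcon 0
  have e1 := hcon 1
  have e2 := hcon (-1)
  have : (2 : F) * p₂ = 0 := by linear_combination e1 + e2 - 2 * e0
  rcases mul_eq_zero.1 this with h | h
  · exact h2 h
  · exact hp h

/-- linear dependence from a vanishing Gram determinant -/
theorem exists_ker {B : LinearMap.BilinForm F V} (hB : ∀ x y, B x y = B y x) {a b : V} (h : gd B a b = 0) :
    ∃ x y : F, (x ≠ 0 ∨ y ≠ 0) ∧ B (x • a + y • b) a = 0 ∧ B (x • a + y • b) b = 0 := by
  unfold gd at h
  by_cases h1 : B a a = 0
  · rw [h1, zero_mul, zero_sub, neg_eq_zero, mul_self_eq_zero] at h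
    refine ⟨1, 0, Or.inl one_ne_zero, ?_, ?_⟩
    · simp [h1]
    · simp [h]
  · refine ⟨- B a b, B a a, Or.inr h1, ?_, ?_⟩
    · simp only [map_add, map_smul, LinearMap.add_apply, LinearMap.smul_apply, smul_eq_mul]
      rw [hB b a]
      ring
    · simp only [map_add, map_smul, LinearMap.add_apply, LinearMap.smul_apply, smul_eq_mul]
      linear_combination h

/-- vectors of a nondegenerate plane -/
theorem eq_zero_of_gd {B : LinearMap.BilinForm F V} (hB : ∀ x y, B x y = B y x) {a b : V} (h : gd B a b ≠ 0) {x y : F}
    (ha : B (x • a + y • b) a = 0) (hb : B (x • a + y • b) b = 0) : x = 0 ∧ y = 0 := by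
  simp only [map_add, map_smul, LinearMap.add_apply, LinearMap.smul_apply, smul_eq_mul] at ha hb
  rw [hB b a] at ha
  unfold gd at h
  constructor
  · refine (mul_eq_zero.1 ?_).resolve_right h
    linear_combination B b b * ha - B a b * hb
  · refine (mul_eq_zero.1 ?_).resolve_right h
    linear_combination B a a * hb - B a b * ha

/-- **A common nondegenerate plane.** -/
theorem two_forms (h2 : (2 : F) ≠ 0) {B β : LinearMap.BilinForm F V} (hB : ∀ x y, B x y = B y x)
    (hβ : ∀ x y, β x y = β y x) {a b d : V} (hab : gd B a b ≠ 0)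
    (hr : ∀ c ∈ Submodule.span F {a, b}, ∀ e ∈ Submodule.span F {a, b}, gd B c e ≠ 0 → β c c = 0 → β c e = 0 →
      β c d = 0 → gd β e d ≠ 0) :
    ∃ u ∈ Submodule.span F {a, b, d}, ∃ v ∈ Submodule.span F {a, b, d}, gd B u v ≠ 0 ∧ gd β u v ≠ 0 := by
  have hle : Submodule.span F {a, b} ≤ Submodule.span F {a, b, d} := by
    apply Submodule.span_mono
    intro x hx
    simp only [Set.mem_insert_iff, Set.mem_singleton_iff] at hx ⊢
    tauto
  have ha : a ∈ Submodule.span F {a, b} := Submodule.subset_span (by simp)
  have hb : b ∈ Submodule.span F {a, b} := Submodule.subset_span (by simp)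
  have hd : d ∈ Submodule.span F {a, b, d} := Submodule.subset_span (by simp)
  by_cases h0 : gd β a b = 0
  · obtain ⟨x, y, hxy, k1, k2⟩ := exists_ker hβ h0
    -- the new basis
    obtain ⟨c, hc, e, he, hce, hcc, hce'⟩ : ∃ c ∈ Submodule.span F {a, b}, ∃ e ∈ Submodule.span F {a, b},
        gd B c e ≠ 0 ∧ β c c = 0 ∧ β c e = 0 := by
      have hcm : x • a + y • b ∈ Submodule.span F {a, b} := add_mem (Submodule.smul_mem _ _ ha) (Submodule.smul_mem _ _ hb)
      have hcc : β (x • a + y • b) (x • a + y • b) = 0 := by
        rw [map_add, map_smul, map_smul, k1, k2, smul_zero, smul_zero, add_zero]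
      rcases hxy with hx | hy
      · refine ⟨_, hcm, b, hb, ?_, hcc, k2⟩
        have : gd B (x • a + y • b) b = x ^ 2 * gd B a b := by
          unfold gd
          simp only [map_add, map_smul, LinearMap.add_apply, LinearMap.smul_apply, smul_eq_mul]
          rw [hB b a]
          ring
        rw [this]
        exact mul_ne_zero (pow_ne_zero _ hx) hab
      · refine ⟨_, hcm, a, ha, ?_, hcc, k1⟩
        have : gd B (x • a + y • b) a = y ^ 2 * gd B a b := by
          unfold gd
          simp only [map_add, map_smul, LinearMap.add_apply, LinearMap.smul_apply, smul_eq_mul]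
          rw [hB b a]
          ring
        rw [this]
        exact mul_ne_zero (pow_ne_zero _ hy) hab
    by_cases hcd : β c d = 0
    · have h3 := hr c hc e he hce hcc hce' hcd
      obtain ⟨t, ht⟩ := exists_t (p₀ := gd B e d) (p₁ := 2 * (B e e * B d c - B e d * B e c)) h2
        (p₂ := gd B e c) (by rw [gd_comm hB]; exact hce)
      refine ⟨e, hle he, d + t • c, add_mem hd (Submodule.smul_mem _ _ (hle hc)), ?_, ?_⟩
      · rw [gd_add hB]; exact ht
      · have : gd β e (d + t • c) = gd β e d := by
          rw [gd_add hβ]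
          have e1 : gd β e c = 0 := by
            unfold gd
            rw [hcc, hβ e c, hce']
            ring
          rw [e1, hβ d c, hcd, hβ e c, hce']
          ring
        rw [this]
        exact h3
    · obtain ⟨t, ht⟩ := exists_t (p₀ := gd B c d) (p₁ := 2 * (B c c * B d e - B c d * B c e)) h2
        (p₂ := gd B c e) hce
      refine ⟨c, hle hc, d + t • e, add_mem hd (Submodule.smul_mem _ _ (hle he)), ?_, ?_⟩
      · rw [gd_add hB]; exact ht
      · have : gd β c (d + t • e) = - (β c d * β c d) := by
          unfold gd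
          simp only [map_add, map_smul, smul_eq_mul]
          rw [hcc, hce']
          ring
        rw [this, neg_ne_zero]
        exact mul_ne_zero hcd hcd
  · exact ⟨a, hle ha, b, hle hb, hab, h0⟩

end Two

end Cfsg.Agent.H972.QS
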