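import Cfsg.Agent.H972.QS.CaseC
import Cfsg.Agent.H383.QS.Rows

/-!
# T*, even dimension, and the rows of the even-dimensional orthogonal groups (QS, B2; helper972, helper46, helper542)
-/

set_option autoImplicit false

universe u

namespace Cfsg.Agent.H972.QS

open Cfsg.Agent.LieClassical Cfsg.Agent.LieClassical.OrthCore Cfsg.Agent.LieClassical.OrthTrans
open Cfsg.Agent.H6.QO Cfsg.Agent.H777.Ore

/-- **T*, even dimension** -/
theorem tstar_even {κ : Type} [Fintype κ] [DecidableEq κ] {F : Type u} [Field F] [Finite F]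
    {Q : QuadraticForm F (κ → F)} (hG : Good Q) (h2 : (2 : F) ≠ 0) {n : ℕ} (hn : 4 ≤ n)
    (hc : Fintype.card κ = 2 * n) : Cfsg.Agent.H383.QS.TStar Q := fun g hg =>
  Cfsg.Agent.H46.QS.tstar_even_cr hG h2 hn hc (fun hQ h => cr h2 hQ (by omega)) g hg

/-- the groups `PΩ⁺(2l, q)`, `l ≥ 4`, `q` odd -/
theorem ra_plus {F : Type u} [Field F] [Fintype F] (h2 : (2 : F) ≠ 0) {l : ℕ} (hl : 4 ≤ l) :
    RowA (Cfsg.POmega F (Cfsg.quadFormPlus l F)) :=
  Cfsg.Agent.H383.QS.row_plus h2 hl (tstar_even (H63.Plus.good_plus F (m := l) (by omega)) h2 hl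
    (by rw [Fintype.card_sum, Fintype.card_fin]; ring))

/-- the groups `PΩ⁻(2m + 2, q)`, `m ≥ 3`, `q` odd -/
theorem ra_minus {F : Type} [Field F] [Fintype F] (h2 : (2 : F) ≠ 0) {m : ℕ} (hm : 3 ≤ m) (a b : F)
    (hab : ∀ z₁ z₂ : F, z₁ ^ 2 + a * z₁ * z₂ + b * z₂ ^ 2 = 0 → z₁ = 0 ∧ z₂ = 0) :
    RowA (Cfsg.POmega F (Cfsg.quadFormMinus m F a b)) :=
  Cfsg.Agent.H383.QS.row_minus h2 hm a b hab (tstar_even (H63.Minus.good m a b hab (by omega)) h2
    (n := m + 1) (by omega) (by rw [Fintype.card_sum, Fintype.card_sum, Fintype.card_fin, Fintype.card_fin]; ring))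

end Cfsg.Agent.H972.QS
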